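import Cfsg.Agent.H668.Five.Rows

/-!
# S4874 (helper39): criteria for centralizers without normal `2`-complement

* `not_compl_of_gen` : a nontrivial `2`-element which is a product of elements of odd order;
* `NN.of_gen` : the same for centralizers;
* `sl_two_not_compl` : `SL₂(K)`, `|K|` odd, has no normal `2`-complement.
-/

set_option autoImplicit false
set_option linter.unusedSimpArgs false
set_option linter.unnecessarySeqFocus false

open Cfsg

namespace Cfsg.Agent.H39.Five

open Cfsg.Agent.H668.Five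

/-- a nontrivial `2`-element in the group generated by the elements of odd order -/
theorem not_compl_of_gen {X : Type*} [Group X] [Finite X] {y : X} (k : ℕ) (hy2 : y ^ 2 ^ k = 1) (hy1 : y ≠ 1)
    (hy : y ∈ Subgroup.closure {g : X | Odd (orderOf g)}) : ¬ HasNormalPComplement 2 X := by
  intro hX
  obtain ⟨N, hN, hpN, m, hm⟩ := OddOrderLocal.NilpotentQuotient.exists_of_hasNormalPComplement hX
  have h1 : Subgroup.closure {g : X | Odd (orderOf g)} ≤ N := by
    rw [Subgroup.closure_le]
    intro h hodd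
    have h1 : h ^ (2 ^ m) ∈ N := by
      rw [← hm]
      exact Subgroup.pow_index_mem N h
    have h2 : Nat.Coprime (2 ^ m) (orderOf h) := Nat.Coprime.pow_left m (Nat.coprime_two_left.2 hodd)
    have h3 : h ∈ Subgroup.zpowers (h ^ (2 ^ m)) := by
      obtain ⟨l, hl⟩ := exists_pow_eq_self_of_coprime h2
      exact Subgroup.mem_zpowers_iff.2 ⟨(l : ℤ), by rw [zpow_natCast]; exact hl⟩
    exact (Subgroup.zpowers_le.2 h1) h3
  have hyN := h1 hy
  have h4 : orderOf y ∣ Nat.card N := by
    have := orderOf_dvd_natCard (⟨y, hyN⟩ : N)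
    rwa [Subgroup.orderOf_mk] at this
  have h5 : orderOf y ∣ 2 ^ k := orderOf_dvd_of_pow_eq_one hy2
  obtain ⟨j, -, hj⟩ := (Nat.dvd_prime_pow Nat.prime_two).1 h5
  rw [hj] at h4
  have h8 : j = 0 := by
    by_contra hj0
    exact hpN ((dvd_pow_self 2 hj0).trans h4)
  rw [h8, pow_zero] at hj
  exact hy1 (orderOf_eq_one_iff.1 hj)

/-- a nontrivial `2`-element in the group generated by the elements of odd order of the centralizer -/
theorem NN.of_gen {X : Type*} [Group X] [Finite X] {x y : X} (k : ℕ) (hy2 : y ^ 2 ^ k = 1) (hy1 : y ≠ 1)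
    (hy : y ∈ Subgroup.closure {g : X | Odd (orderOf g) ∧ g * x = x * g}) : NN x := by
  have hle : Subgroup.closure {g : X | Odd (orderOf g) ∧ g * x = x * g} ≤ Subgroup.centralizer ({x} : Set X) := by
    rw [Subgroup.closure_le]
    intro g hg
    exact Subgroup.mem_centralizer_singleton_iff.2 hg.2
  refine not_compl_of_gen (X := ↥(Subgroup.centralizer ({x} : Set X))) (y := ⟨y, hle hy⟩) k (Subtype.ext hy2)
    (fun h => hy1 (congrArg Subtype.val h)) ?_
  have h1 : ∀ z ∈ Subgroup.closure {g : X | Odd (orderOf g) ∧ g * x = x * g},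
      ∀ hz : z ∈ Subgroup.centralizer ({x} : Set X), (⟨z, hz⟩ : ↥(Subgroup.centralizer ({x} : Set X))) ∈
        Subgroup.closure {g : ↥(Subgroup.centralizer ({x} : Set X)) | Odd (orderOf g)} := by
    intro z hz
    induction hz using Subgroup.closure_induction with
    | mem g hg =>
      intro hz
      apply Subgroup.subset_closure
      show Odd _
      rw [Subgroup.orderOf_mk]
      exact hg.1
    | one => intro _; exact one_mem _
    | mul a b ha hb iha ihb =>
      intro hz
      exact mul_mem (iha (hle ha)) (ihb (hle hb))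
    | inv a ha iha =>
      intro hz
      exact inv_mem (iha (hle ha))
  exact h1 y hy _

/-- the commutator of an element of odd order -/
theorem NN.of_comm {X : Type*} [Group X] [Finite X] {x h u : X} (k : ℕ) (hh : Odd (orderOf h)) (hx : h * x = x * h)
    (ux : u * x = x * u) (hy2 : (h * (u * h⁻¹ * u⁻¹)) ^ 2 ^ k = 1) (hy1 : h * (u * h⁻¹ * u⁻¹) ≠ 1) : NN x := by
  refine NN.of_gen k hy2 hy1 (mul_mem (Subgroup.subset_closure ⟨hh, hx⟩) (Subgroup.subset_closure ⟨?_, ?_⟩))
  · have h1 : orderOf (u * h⁻¹ * u⁻¹) = orderOf h⁻¹ := (MulEquiv.orderOf_eq (MulAut.conj u) h⁻¹)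
    rw [h1, orderOf_inv]
    exact hh
  · have c1 : Commute h x := hx
    have c2 : Commute u x := ux
    exact ((c2.mul_left c1.inv_left).mul_left c2.inv_left).eq

section SL

variable {K : Type*} [Field K]

/-- `[[0,1],[-1,0]]` -/
def wS (K : Type*) [Field K] : Matrix.SpecialLinearGroup (Fin 2) K := ⟨!![0, 1; -1, 0], by simp [Matrix.det_fin_two]⟩

/-- `[[1,1],[0,1]]` -/
def tS (K : Type*) [Field K] : Matrix.SpecialLinearGroup (Fin 2) K := ⟨!![1, 1; 0, 1], by simp [Matrix.det_fin_two]⟩

/-- `[[1,0],[-1,1]]` -/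
def lS (K : Type*) [Field K] : Matrix.SpecialLinearGroup (Fin 2) K := ⟨!![1, 0; -1, 1], by simp [Matrix.det_fin_two]⟩

theorem wS_eq : wS K = tS K * lS K * tS K := by
  ext1 i j
  rw [Matrix.SpecialLinearGroup.coe_mul, Matrix.SpecialLinearGroup.coe_mul]
  fin_cases i <;> fin_cases j <;> simp [wS, tS, lS, Matrix.mul_fin_two]

theorem tS_pow (n : ℕ) : ((tS K ^ n : Matrix.SpecialLinearGroup (Fin 2) K) : Matrix (Fin 2) (Fin 2) K) = !![1, (n : K); 0, 1] := by
  induction n with
  | zero => ext i j; fin_cases i <;> fin_cases j <;> simp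
  | succ n ih =>
    rw [pow_succ, Matrix.SpecialLinearGroup.coe_mul, ih]
    ext i j
    fin_cases i <;> fin_cases j <;> simp [tS, Matrix.mul_fin_two, add_comm]

theorem lS_pow (n : ℕ) : ((lS K ^ n : Matrix.SpecialLinearGroup (Fin 2) K) : Matrix (Fin 2) (Fin 2) K) = !![1, 0; -(n : K), 1] := by
  induction n with
  | zero => ext i j; fin_cases i <;> fin_cases j <;> simp
  | succ n ih =>
    rw [pow_succ, Matrix.SpecialLinearGroup.coe_mul, ih]
    ext i j
    fin_cases i <;> fin_cases j <;> simp [lS, Matrix.mul_fin_two] <;> ring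

theorem wS_sq : ((wS K ^ 2 : Matrix.SpecialLinearGroup (Fin 2) K) : Matrix (Fin 2) (Fin 2) K) = !![-1, 0; 0, -1] := by
  rw [pow_two, Matrix.SpecialLinearGroup.coe_mul]
  ext i j
  fin_cases i <;> fin_cases j <;> simp [wS, Matrix.mul_fin_two]

theorem wS_pow_four : wS K ^ 4 = 1 := by
  have h : wS K ^ 4 = wS K ^ 2 * wS K ^ 2 := by rw [← pow_add]
  ext1 i j
  rw [h, Matrix.SpecialLinearGroup.coe_mul, wS_sq]
  fin_cases i <;> fin_cases j <;> simp [Matrix.mul_fin_two]

theorem wS_sq_ne (h2 : (2 : K) ≠ 0) : wS K ^ 2 ≠ 1 := by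
  intro h
  have h1 := congrFun (congrFun (congrArg (fun z : Matrix.SpecialLinearGroup (Fin 2) K => (z : Matrix (Fin 2) (Fin 2) K)) h) 0) 0
  rw [wS_sq] at h1
  simp at h1
  apply h2
  linear_combination -h1

theorem orderOf_wS (h2 : (2 : K) ≠ 0) : orderOf (wS K) = 4 := by
  have h := orderOf_eq_prime_pow (p := 2) (n := 1) (x := wS K) (by
    rw [pow_one]
    exact wS_sq_ne h2) (by
    show wS K ^ 4 = 1
    exact wS_pow_four)
  exact h

/-- `SL₂(K)` has no normal `2`-complement in odd characteristic -/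
theorem wS_mem [Finite K] (h2 : (2 : K) ≠ 0) : wS K ∈ Subgroup.closure {g : Matrix.SpecialLinearGroup (Fin 2) K | Odd (orderOf g)} := by
  obtain ⟨p, hp⟩ := CharP.exists K
  have hpp : p.Prime := CharP.char_is_prime K p
  have hodd : Odd p := by
    apply hpp.odd_of_ne_two
    rintro rfl
    apply h2
    have := CharP.cast_eq_zero K 2
    exact_mod_cast this
  have h0 : (p : K) = 0 := CharP.cast_eq_zero K p
  have h1 : tS K ^ p = 1 := by
    ext1 i j
    rw [tS_pow, h0]
    fin_cases i <;> fin_cases j <;> simp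
  have h3 : lS K ^ p = 1 := by
    ext1 i j
    rw [lS_pow, h0]
    fin_cases i <;> fin_cases j <;> simp
  have h4 : ∀ g : Matrix.SpecialLinearGroup (Fin 2) K, g ^ p = 1 → Odd (orderOf g) := fun g hg =>
    Odd.of_dvd_nat hodd (orderOf_dvd_of_pow_eq_one hg)
  rw [wS_eq]
  exact mul_mem (mul_mem (Subgroup.subset_closure (h4 _ h1)) (Subgroup.subset_closure (h4 _ h3)))
    (Subgroup.subset_closure (h4 _ h1))

/-- two commuting copies of `SL₂(K)` in odd characteristic -/
theorem good_of_two_sl [Finite K] (h2 : (2 : K) ≠ 0) {G : Type*} [Group G] [Finite G]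
    (f g : Matrix.SpecialLinearGroup (Fin 2) K →* G) (hf : Function.Injective f) (hg : Function.Injective g)
    (hc : ∀ a b, f a * g b = g b * f a) : Good G := by
  refine Or.inl ⟨f (wS K), by rw [orderOf_injective f hf, orderOf_wS h2], ?_⟩
  refine NN.of_gen (y := g (wS K)) 2 (by
    rw [← map_pow]
    show g (wS K ^ 4) = 1
    rw [wS_pow_four, map_one]) (fun h => ?_) ?_
  · have h1 : wS K = 1 := hg (h.trans (map_one g).symm)
    apply wS_sq_ne h2
    rw [h1, one_pow]
  · have h1 := wS_mem h2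
    have h3 : g (wS K) ∈ (Subgroup.closure {g : Matrix.SpecialLinearGroup (Fin 2) K | Odd (orderOf g)}).map g := ⟨_, h1, rfl⟩
    rw [MonoidHom.map_closure] at h3
    refine Subgroup.closure_mono ?_ h3
    rintro _ ⟨a, ha, rfl⟩
    exact ⟨by rw [orderOf_injective g hg]; exact ha, (hc _ _).symm⟩

end SL

end Cfsg.Agent.H39.Five
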