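import Cfsg.Agent.H39.Five.Crit
import Cfsg.Agent.H356.KillPSU
import Cfsg.Agent.H674.SUBlock

/-!
# S4874 (helper39): the rows `PSU_n(q)`, `n ≥ 4`
-/

set_option autoImplicit false
set_option linter.unusedSimpArgs false
set_option linter.unnecessarySeqFocus false
set_option linter.unusedSectionVars false

open Cfsg

namespace Cfsg.Agent.H39.Five

open Cfsg.Agent.H668.Five Cfsg.Agent.LieClassical

/-! ### odd `q` -/

section Odd

variable {F : Type} [Field F] [Fintype F] {q : ℕ}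

open Cfsg.Agent.Phan in
/-- an element of a block which is scalar is trivial -/
theorem emb_eq_one {n : ℕ} (hF : Fintype.card F = q ^ 2) (hn : 3 ≤ n) (k : ℕ) (h : k + 2 ≤ n) (g : SU 2 F q)
    (hg : (emb hF k h g : SU n F q) ∈ Subgroup.center (SU n F q)) : g = 1 := by
  obtain ⟨c, hc1, hc2, h1⟩ := (SUBasic.mem_center_SU_iff hF hn _).1 hg
  have h2 : mat (emb hF k h g : SU n F q) = Matrix.diagonal fun _ => c := by rw [h1]; rfl
  obtain ⟨x, hx⟩ : ∃ x : Fin n, ∀ i : Fin 2, x ≠ sh k h i := by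
    by_contra hcon
    push Not at hcon
    have h3 : Fintype.card (Fin n) ≤ Fintype.card (Fin 2) := Fintype.card_le_of_surjective _ (fun x => by
      obtain ⟨i, hi⟩ := hcon x
      exact ⟨i, hi.symm⟩)
    simp at h3
    omega
  have h3 : c = 1 := by
    have h4 := extM_mulVec_of_notMem hx (mat g) (fun _ => (1 : F))
    have h5 : extM (sh k h) (mat g) = Matrix.diagonal fun _ => c := h2
    rw [h5, Matrix.mulVec_diagonal] at h4
    simpa using h4
  have h4 : (emb hF k h g : SU n F q) = 1 := by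
    apply mat_inj
    rw [h2, h3, mat_one, Matrix.diagonal_one]
  exact emb_injective hF k h (h4.trans (map_one _).symm)

/-- `PSU_n(q)`, `q` odd -/
theorem row_psu_odd (F : Type) [Field F] [Fintype F] (q : ℕ) (hF : Fintype.card F = q ^ 2)
    (hq : Odd q) (n : ℕ) (hn : 4 ≤ n) : Good (PSU n F q) := by
  have hq2 : IsPrimePow (q ^ 2) := hF ▸ Fintype.isPrimePow_card_of_field
  have hqp : IsPrimePow q := (isPrimePow_pow_iff (by norm_num)).1 hq2
  obtain ⟨K, _, _, hK⟩ := Cfsg.Agent.H356.KillPSU.exists_field hqp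
  obtain ⟨-, g, hg, hr, -⟩ := Cfsg.Agent.Classification.QDW.SUTwoTrace.exists_hom hF hK
  have hmem : ∀ s, g s ∈ SU 2 F q := fun s => by rw [← hr]; exact ⟨s, rfl⟩
  have h2 : (2 : K) ≠ 0 := by
    intro h0
    have h1 : CharP K 2 := CharTwo.of_one_ne_zero_of_two_eq_zero one_ne_zero h0
    have h3 : 2 ∣ Fintype.card K := (CharP.cast_eq_zero_iff K 2 _).1 (Nat.cast_card_eq_zero K)
    rw [hK] at h3
    exact (Nat.not_even_iff_odd.2 hq) (even_iff_two_dvd.2 h3)
  let φ : ∀ k : ℕ, k + 2 ≤ n → (Matrix.SpecialLinearGroup (Fin 2) K →* PSU n F q) := fun k h =>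
    (QuotientGroup.mk' (Subgroup.center (SU n F q))).comp
      ((Cfsg.Agent.Phan.emb hF k h).comp (g.codRestrict (SU 2 F q) hmem))
  have hφ : ∀ k h, Function.Injective (φ k h) := by
    intro k h
    rw [injective_iff_map_eq_one]
    intro s hs
    have h3 := emb_eq_one hF (by omega) k h _ ((QuotientGroup.eq_one_iff _).1 hs)
    have h4 : g s = 1 := congrArg Subtype.val h3
    exact hg (h4.trans (map_one g).symm)
  refine good_of_two_sl h2 (φ 0 (by omega)) (φ 2 (by omega)) (hφ _ _) (hφ _ _) fun a b => ?_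
  have h3 := Cfsg.Agent.Phan.emb_comm hF (n := n) (k := 0) (k' := 2) (by omega) (by omega) (Or.inl (by omega))
    (g.codRestrict (SU 2 F q) hmem a) (g.codRestrict (SU 2 F q) hmem b)
  exact congrArg (QuotientGroup.mk' (Subgroup.center (SU n F q))) h3

end Odd

/-! ### even `q` -/

section Even

open Matrix Cfsg.Agent.H674.SUTools Cfsg.Agent.H674.SUBlock

variable {F : Type} [Field F]

/-- the element of order `4` -/
def vM (c : F) : Matrix (Fin 4) (Fin 4) F := !![1 + c, c, 1, 0; c, 1 + c, 1, 0; 1, 1, 1, 0; 0, 0, 0, 1]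

/-- the same element in other coordinates -/
def uM (c : F) : Matrix (Fin 4) (Fin 4) F := !![1 + c, c, 0, 1; c, 1 + c, 0, 1; 0, 0, 1, 0; 1, 1, 0, 1]

/-- the torus element, `m = l⁻¹` -/
def hM (l m : F) : Matrix (Fin 4) (Fin 4) F := !![l, 0, 0, 0; 0, l, 0, 0; 0, 0, l, 0; 0, 0, 0, m ^ 3]

/-- the commutator, `s = l⁴`, `t = m⁴` -/
def yM (s t : F) : Matrix (Fin 4) (Fin 4) F := !![s, 1 + s, 0, 1 + s; 1 + s, s, 0, 1 + s; 0, 0, 1, 0; 1 + t, 1 + t, 0, 1]

theorem vM_sq (c : F) (h2 : (2 : F) = 0) : vM c * vM c = !![0, 1, 0, 0; 1, 0, 0, 0; 0, 0, 1, 0; 0, 0, 0, 1] := by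
  ext i j
  fin_cases i <;> fin_cases j <;> simp [vM, Matrix.mul_apply, Fin.sum_univ_succ] <;> grind

theorem vM_four (c : F) (h2 : (2 : F) = 0) : vM c * vM c * (vM c * vM c) = 1 := by
  rw [vM_sq c h2]
  ext i j
  fin_cases i <;> fin_cases j <;> simp [Matrix.mul_apply, Fin.sum_univ_succ]

theorem det_vM (c : F) (h2 : (2 : F) = 0) : (vM c).det = 1 := by
  simp [vM, Matrix.det_succ_row_zero, Fin.sum_univ_succ, Fin.succAbove]
  grind

theorem det_uM (c : F) (h2 : (2 : F) = 0) : (uM c).det = 1 := by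
  simp [uM, Matrix.det_succ_row_zero, Fin.sum_univ_succ, Fin.succAbove]
  grind

theorem det_hM {l m : F} (hlm : l * m = 1) : (hM l m).det = 1 := by
  simp [hM, Matrix.det_succ_row_zero, Fin.sum_univ_succ, Fin.succAbove]
  grind

theorem comm_vu (c : F) (h2 : (2 : F) = 0) : uM c * vM c = vM c * uM c := by
  ext i j
  fin_cases i <;> fin_cases j <;> simp [vM, uM, Matrix.mul_apply, Fin.sum_univ_succ] <;> grind

theorem comm_vh (c l m : F) : hM l m * vM c = vM c * hM l m := by
  ext i j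
  fin_cases i <;> fin_cases j <;> simp [vM, hM, Matrix.mul_apply, Fin.sum_univ_succ] <;> grind

theorem uM_inv (c : F) (h2 : (2 : F) = 0) : uM c * uM (c + 1) = 1 := by
  ext i j
  fin_cases i <;> fin_cases j <;> simp [uM, Matrix.mul_apply, Fin.sum_univ_succ] <;> grind

theorem hM_inv {l m : F} (hlm : l * m = 1) : hM l m * hM m l = 1 := by
  ext i j
  fin_cases i <;> fin_cases j <;> simp [hM, Matrix.mul_apply, Fin.sum_univ_succ] <;> grind

theorem huh (c l m : F) (hlm : l * m = 1) (h2 : (2 : F) = 0) :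
    hM l m * (uM c * hM m l * uM (c + 1)) = yM (l ^ 4) (m ^ 4) := by
  have h3 : m ^ 3 * l ^ 3 = 1 := by rw [← mul_pow, mul_comm, hlm, one_pow]
  have h4 : uM c * hM m l = !![(1 + c) * m, c * m, 0, l ^ 3; c * m, (1 + c) * m, 0, l ^ 3; 0, 0, m, 0; m, m, 0, l ^ 3] := by
    ext i j
    fin_cases i <;> fin_cases j <;> simp [uM, hM, Matrix.mul_apply, Fin.sum_univ_succ]
  have h5 : hM l m * (uM c * hM m l) = !![1 + c, c, 0, l ^ 4; c, 1 + c, 0, l ^ 4; 0, 0, 1, 0; m ^ 4, m ^ 4, 0, 1] := by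
    rw [h4]
    ext i j
    fin_cases i <;> fin_cases j <;> simp [hM, Matrix.mul_apply, Fin.sum_univ_succ] <;> grind
  rw [← Matrix.mul_assoc, h5]
  ext i j
  fin_cases i <;> fin_cases j <;> simp [uM, yM, Matrix.mul_apply, Fin.sum_univ_succ] <;> grind

theorem yM_sq (s t : F) (h2 : (2 : F) = 0) : yM s t * yM s t = !![1 + (1 + s) * (1 + t), (1 + s) * (1 + t), 0, 0;
    (1 + s) * (1 + t), 1 + (1 + s) * (1 + t), 0, 0; 0, 0, 1, 0; 0, 0, 0, 1] := by
  ext i j
  fin_cases i <;> fin_cases j <;> simp [yM, Matrix.mul_apply, Fin.sum_univ_succ] <;> grind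

theorem yM_four (s t : F) (h2 : (2 : F) = 0) : yM s t * yM s t * (yM s t * yM s t) = 1 := by
  rw [yM_sq s t h2]
  ext i j
  fin_cases i <;> fin_cases j <;> simp [Matrix.mul_apply, Fin.sum_univ_succ] <;> grind

theorem isom_vM (σ : F →+* F) {c : F} (hc : σ c = c + 1) (h2 : (2 : F) = 0) : (vM c)ᵀ * (vM c).map σ = 1 := by
  ext i j
  fin_cases i <;> fin_cases j <;> simp [vM, Matrix.mul_apply, Fin.sum_univ_succ, hc] <;> grind

theorem isom_uM (σ : F →+* F) {c : F} (hc : σ c = c + 1) (h2 : (2 : F) = 0) : (uM c)ᵀ * (uM c).map σ = 1 := by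
  ext i j
  fin_cases i <;> fin_cases j <;> simp [uM, Matrix.mul_apply, Fin.sum_univ_succ, hc] <;> grind

theorem isom_hM (σ : F →+* F) {l m : F} (hlm : l * m = 1) (hl : σ l = m) (hm : σ m = l) : (hM l m)ᵀ * (hM l m).map σ = 1 := by
  ext i j
  fin_cases i <;> fin_cases j <;> simp [hM, Matrix.mul_apply, Fin.sum_univ_succ, hl, hm] <;> grind

variable [Fintype F] {q : ℕ}

theorem two_zero (hF : Fintype.card F = q ^ 2) (hq : Even q) : (2 : F) = 0 := by
  obtain ⟨p, hp⟩ := CharP.exists F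
  have hpp : p.Prime := CharP.char_is_prime F p
  obtain ⟨n, -, hn⟩ := FiniteField.card F p
  rw [hF] at hn
  have h1 : 2 ∣ p ^ (n : ℕ) := by
    rw [← hn]
    exact (even_iff_two_dvd.1 hq).trans (dvd_pow_self q (by norm_num))
  have h3 : p = 2 := ((Nat.prime_dvd_prime_iff_eq Nat.prime_two hpp).1 (Nat.prime_two.dvd_of_dvd_pow h1)).symm
  subst h3
  exact_mod_cast CharP.cast_eq_zero F 2

theorem exists_params (hF : Fintype.card F = q ^ 2) (h2 : (2 : F) = 0) :
    ∃ c l m : F, GUOrder.frob hF c = c + 1 ∧ l * m = 1 ∧ GUOrder.frob hF l = m ∧ GUOrder.frob hF m = l ∧ l ≠ 1 ∧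
      l ^ (q + 1) = 1 := by
  have hq2 : 2 ≤ q := GUOrder.two_le hF
  obtain ⟨ζ, hζ⟩ := IsCyclic.exists_generator (α := Fˣ)
  have hord : orderOf ζ = q ^ 2 - 1 := by
    rw [orderOf_eq_card_of_forall_mem_zpowers hζ, Nat.card_units, Nat.card_eq_fintype_card, hF]
  have hlt : q < q ^ 2 := by nlinarith
  have h1 : (ζ : F) ^ q ≠ ζ := by
    intro h
    have h3 : ζ ^ (q - 1) = 1 := by
      have h4 : ζ ^ q = ζ := Units.ext (by rw [Units.val_pow_eq_pow_val]; exact h)
      apply mul_right_cancel (b := ζ)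
      rw [← pow_succ, show q - 1 + 1 = q by omega, h4, one_mul]
    have h4 := orderOf_dvd_of_pow_eq_one h3
    rw [hord] at h4
    have h5 := Nat.le_of_dvd (by omega) h4
    omega
  set σ := GUOrder.frob hF with hσ
  have hσσ : ∀ x, σ (σ x) = x := GUOrder.frob_frob hF
  set z : F := (ζ : F) with hz
  set s : F := z + σ z with hs
  have hs0 : s ≠ 0 := by
    intro h
    apply h1
    have h3 : σ z = z := by grind
    rw [← h3, hσ, GUOrder.frob_apply, ← pow_mul, ← pow_two, ← hF, FiniteField.pow_card]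
    exact h3.symm
  have hss : σ s = s := by
    rw [hs, map_add, hσσ, add_comm]
  have hdl : ζ ^ ((q - 1) * (q + 1)) = 1 := by
    have h3 : (q - 1) * (q + 1) = q ^ 2 - 1 := by
      obtain ⟨k, rfl⟩ : ∃ k, q = k + 1 := ⟨q - 1, by omega⟩
      rw [Nat.add_sub_cancel]
      symm
      apply Nat.sub_eq_of_eq_add
      ring
    rw [h3, ← hord, pow_orderOf_eq_one]
  have hl1 : (z ^ (q - 1)) ^ (q + 1) = 1 := by
    rw [← pow_mul, hz, ← Units.val_pow_eq_pow_val, hdl, Units.val_one]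
  have hz0 : z ≠ 0 := Units.ne_zero ζ
  refine ⟨z / s, z ^ (q - 1), (z ^ (q - 1))⁻¹, ?_, mul_inv_cancel₀ (pow_ne_zero _ hz0), ?_, ?_, ?_, hl1⟩
  · rw [map_div₀, hss, div_add_one hs0]
    congr 1
    rw [hs]
    grind
  · rw [hσ, GUOrder.frob_apply]
    exact eq_inv_of_mul_eq_one_left (by rw [← pow_succ]; exact hl1)
  · rw [map_inv₀, hσ, GUOrder.frob_apply, inv_eq_iff_eq_inv]
    exact eq_inv_of_mul_eq_one_left (by rw [← pow_succ]; exact hl1)
  · intro h
    have h3 : ζ ^ (q - 1) = 1 := Units.ext (by rw [Units.val_pow_eq_pow_val]; exact h)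
    have h4 := orderOf_dvd_of_pow_eq_one h3
    rw [hord] at h4
    have h5 := Nat.le_of_dvd (by omega) h4
    omega

theorem good_su_four (hF : Fintype.card F = q ^ 2) (hq : Even q) : Good (SU 4 F q) := by
  have h2 := two_zero hF hq
  obtain ⟨c, l, m, hc, hlm, hl, hm, hl1, hlq⟩ := exists_params hF h2
  let v : SU 4 F q := mkSU hF (vM c) (det_vM c h2) (isom_vM _ hc h2)
  let u : SU 4 F q := mkSU hF (uM c) (det_uM c h2) (isom_uM _ hc h2)
  let u' : SU 4 F q := mkSU hF (uM (c + 1)) (det_uM _ h2) (isom_uM _ (by rw [map_add, hc, map_one]) h2)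
  let h : SU 4 F q := mkSU hF (hM l m) (det_hM hlm) (isom_hM _ hlm hl hm)
  let h' : SU 4 F q := mkSU hF (hM m l) (det_hM (by rw [mul_comm]; exact hlm)) (isom_hM _ (by rw [mul_comm]; exact hlm) hm hl)
  have hu : u * u' = 1 := by
    apply cm_injective
    rw [map_mul, map_one]
    exact uM_inv c h2
  have hh : h * h' = 1 := by
    apply cm_injective
    rw [map_mul, map_one]
    exact hM_inv hlm
  have hu' : u⁻¹ = u' := inv_eq_of_mul_eq_one_right hu
  have hh' : h⁻¹ = h' := inv_eq_of_mul_eq_one_right hh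
  have hy : cm (h * (u * h⁻¹ * u⁻¹)) = yM (l ^ 4) (m ^ 4) := by
    rw [hu', hh', map_mul, map_mul, map_mul]
    exact huh c l m hlm h2
  have hpow : ∀ k : ℕ, hM l m ^ k = !![l ^ k, 0, 0, 0; 0, l ^ k, 0, 0; 0, 0, l ^ k, 0; 0, 0, 0, (m ^ 3) ^ k] := by
    intro k
    induction k with
    | zero =>
      ext i j
      fin_cases i <;> fin_cases j <;> simp
    | succ k ih =>
      rw [pow_succ, ih]
      ext i j
      fin_cases i <;> fin_cases j <;> simp [hM, Matrix.mul_apply, Fin.sum_univ_succ, pow_succ]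
  have hmq : m ^ (q + 1) = 1 := by
    have h3 : (l * m) ^ (q + 1) = 1 := by rw [hlm, one_pow]
    rw [mul_pow, hlq, one_mul] at h3
    exact h3
  have hodd : Odd (orderOf h) := by
    have h3 : h ^ (q + 1) = 1 := by
      apply cm_injective
      rw [map_pow, map_one]
      show hM l m ^ (q + 1) = 1
      rw [hpow, hlq, ← pow_mul, mul_comm 3, pow_mul, hmq, one_pow]
      ext i j
      fin_cases i <;> fin_cases j <;> simp
    exact Odd.of_dvd_nat (Even.add_one hq) (orderOf_dvd_of_pow_eq_one h3)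
  refine Or.inl ⟨v, ?_, ?_⟩
  · have h4 := orderOf_eq_prime_pow (p := 2) (n := 1) (x := v) (by
      intro h3
      rw [pow_one] at h3
      have h5 := congrArg cm h3
      rw [pow_two, map_mul, map_one] at h5
      have h6 : vM c * vM c = 1 := h5
      rw [vM_sq c h2] at h6
      have h7 := congrFun (congrFun h6 0) 0
      simp at h7) (by
      apply cm_injective
      rw [map_one, show (2 : ℕ) ^ (1 + 1) = 2 + 2 by norm_num, pow_add, pow_two, map_mul, map_mul]
      exact vM_four c h2)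
    exact h4
  · refine NN.of_comm (h := h) (u := u) 2 hodd ?_ ?_ ?_ ?_
    · apply cm_injective
      rw [map_mul, map_mul]
      exact comm_vh c l m
    · apply cm_injective
      rw [map_mul, map_mul]
      exact comm_vu c h2
    · apply cm_injective
      rw [map_one, show (2 : ℕ) ^ 2 = 2 + 2 by norm_num, pow_add, pow_two, map_mul, map_mul, hy]
      exact yM_four _ _ h2
    · intro h3
      rw [h3, map_one] at hy
      have h7 := congrFun (congrFun hy 0) 0
      simp [yM] at h7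
      -- `l ^ 4 = 1`, hence `l = 1`
      apply hl1
      have h8 : (l + 1) ^ 4 = 0 := by
        have : (l + 1) ^ 4 = l ^ 4 + 1 + 2 * (2 * l ^ 3 + 3 * l ^ 2 + 2 * l) := by ring
        rw [this, h2, ← h7]
        grind
      have h9 : l + 1 = 0 := pow_eq_zero_iff (by norm_num) |>.1 h8
      grind

/-- `PSU_n(q)`, `q` even -/
theorem row_psu_even (F : Type) [Field F] [Fintype F] (q : ℕ) (hF : Fintype.card F = q ^ 2)
    (hq : Even q) (n : ℕ) (hn : 4 ≤ n) : Good (PSU n F q) := by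
  have h2 := two_zero hF hq
  obtain ⟨k, rfl⟩ : ∃ k, n = 4 + k := ⟨n - 4, by omega⟩
  rcases Nat.eq_zero_or_pos k with rfl | hk
  · refine (good_su_four hF hq).map (QuotientGroup.mk' (Subgroup.center (SU 4 F q))) ?_
    rw [injective_iff_map_eq_one]
    intro x hx
    obtain ⟨c, hc1, hc2, h1⟩ := (SUBasic.mem_center_SU_iff hF (by norm_num) _).1 ((QuotientGroup.eq_one_iff _).1 hx)
    have h3 : c = 1 := by
      have h8 : (c + 1) ^ 4 = 0 := by
        have : (c + 1) ^ 4 = c ^ 4 + 1 + 2 * (2 * c ^ 3 + 3 * c ^ 2 + 2 * c) := by ring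
        rw [this, h2, hc1]
        grind
      have h9 : c + 1 = 0 := pow_eq_zero_iff (by norm_num) |>.1 h8
      grind
    rw [← cm_eq_one_iff, h1]
    subst h3
    show (Matrix.diagonal (fun _ => (1 : F)) : Matrix (Fin 4) (Fin 4) F) = 1
    exact Matrix.diagonal_one
  · exact (good_su_four hF hq).map _ (pr_ext_injective hF (by omega) hk)

end Even

end Cfsg.Agent.H39.Five
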